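import Mathlib

/-!
# S5714: the polynomial argument, and the size of the set of elements with a nonzero entry (helper447)
-/

set_option autoImplicit false

namespace Cfsg.Agent.H447.Rg

open Polynomial

universe u

section

variable {K ι : Type*} [Field K] [Fintype ι] [DecidableEq ι]

/-- degrees and leading coefficients of the powers of a polynomial matrix -/
theorem pow_coeff (M : Matrix ι ι K[X]) {D : ℕ} (hdeg : ∀ i j, (M i j).natDegree ≤ D) (m : ℕ) :
    ∀ i j, ((M ^ m) i j).natDegree ≤ D * m ∧
      ((M ^ m) i j).coeff (D * m) = ((Matrix.of fun i j => (M i j).coeff D) ^ m) i j := by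
  induction m with
  | zero =>
    intro i j
    rw [pow_zero, pow_zero, mul_zero]
    by_cases h : i = j
    · subst h
      simp
    · rw [Matrix.one_apply_ne h, Matrix.one_apply_ne h]
      simp
  | succ m ih =>
    intro i j
    rw [pow_succ, pow_succ, Matrix.mul_apply, Matrix.mul_apply, mul_add, mul_one]
    constructor
    · refine Polynomial.natDegree_sum_le_of_forall_le _ _ fun k _ => ?_
      exact Polynomial.natDegree_mul_le.trans (Nat.add_le_add (ih i k).1 (hdeg k j))
    · rw [Polynomial.finsetSum_coeff]
      refine Finset.sum_congr rfl fun k _ => ?_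
      rw [Polynomial.coeff_mul_add_eq_of_natDegree_le (ih i k).1 (hdeg k j), (ih i k).2]
      rfl

/-- powers of a matrix with one nonzero column -/
theorem pow_col (N : Matrix ι ι K) {j0 : ι} (hN : ∀ i j, j ≠ j0 → N i j = 0) (m : ℕ) :
    (∀ k, k ≠ j0 → (N ^ m) j0 k = 0) ∧ (N ^ m) j0 j0 = N j0 j0 ^ m := by
  induction m with
  | zero =>
    refine ⟨fun k hk => ?_, ?_⟩
    · rw [pow_zero, Matrix.one_apply_ne (Ne.symm hk)]
    · rw [pow_zero, pow_zero, Matrix.one_apply_eq]
  | succ m ih =>
    have h : ∀ k, (N ^ (m + 1)) j0 k = N j0 j0 ^ m * N j0 k := by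
      intro k
      rw [pow_succ, Matrix.mul_apply, Finset.sum_eq_single j0]
      · rw [ih.2]
      · intro l _ hl
        rw [ih.1 l hl, zero_mul]
      · intro hj
        exact absurd (Finset.mem_univ j0) hj
    refine ⟨fun k hk => ?_, ?_⟩
    · rw [h, hN j0 k hk, mul_zero]
    · rw [h, pow_succ]

end

/-- **the polynomial argument** -/
theorem card_pow_eq_one_le {T : Type u} [Group T] {K ι : Type*} [Field K] [Fintype ι] [DecidableEq ι] (R : T →* Matrix ι ι K)
    {F : Type*} [Finite F] (x : F → T) (t : F → K) (ht : Function.Injective t) (P : Matrix ι ι K[X]) {D : ℕ} (hD : 1 ≤ D)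
    (hdeg : ∀ i j, (P i j).natDegree ≤ D) (hP : ∀ s, R (x s) = P.map (Polynomial.eval (t s)))
    {i0 j0 : ι} (h0 : ∀ i j, (i, j) ≠ (i0, j0) → (P i j).coeff D = 0) (h1 : (P i0 j0).coeff D ≠ 0)
    (g : T) (hg : R g j0 i0 ≠ 0) (m : ℕ) (hm : 1 ≤ m) : Nat.card {s : F // (g * x s) ^ m = 1} ≤ D * m := by
  classical
  set M : Matrix ι ι K[X] := (R g).map Polynomial.C * P with hM
  have hMdeg : ∀ i j, (M i j).natDegree ≤ D := by
    intro i j
    rw [hM, Matrix.mul_apply]
    refine Polynomial.natDegree_sum_le_of_forall_le _ _ fun k _ => ?_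
    rw [Matrix.map_apply]
    exact (Polynomial.natDegree_C_mul_le _ _).trans (hdeg k j)
  have hMc : ∀ i j, (M i j).coeff D = if j = j0 then R g i i0 * (P i0 j0).coeff D else 0 := by
    intro i j
    rw [hM, Matrix.mul_apply, Polynomial.finsetSum_coeff, Finset.sum_eq_single i0]
    · rw [Matrix.map_apply, Polynomial.coeff_C_mul]
      split_ifs with h
      · rw [h]
      · rw [h0 i0 j (fun h' => h (Prod.ext_iff.1 h').2), mul_zero]
    · intro k _ hk
      rw [Matrix.map_apply, Polynomial.coeff_C_mul, h0 k j (fun h' => hk (Prod.ext_iff.1 h').1), mul_zero]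
    · intro h
      exact absurd (Finset.mem_univ i0) h
  set f : K[X] := (M ^ m) j0 j0 with hf
  have hfc : f.coeff (D * m) ≠ 0 := by
    rw [hf, (pow_coeff M hMdeg m j0 j0).2, (pow_col _ (j0 := j0) (fun i j hj => by
      rw [Matrix.of_apply, hMc, if_neg hj]) m).2, Matrix.of_apply, hMc, if_pos rfl]
    exact pow_ne_zero _ (mul_ne_zero hg h1)
  have hfd : f.natDegree ≤ D * m := (pow_coeff M hMdeg m j0 j0).1
  have hDm : 0 < D * m := Nat.mul_pos hD hm
  have hne : f - 1 ≠ 0 := by
    intro h
    apply hfc
    have h2 := congrArg (fun p => Polynomial.coeff p (D * m)) h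
    simp only [Polynomial.coeff_sub, Polynomial.coeff_zero] at h2
    rw [Polynomial.coeff_one, if_neg (by omega), sub_zero] at h2
    exact h2
  have hroot : ∀ s, (g * x s) ^ m = 1 → t s ∈ (f - 1).roots.toFinset := by
    intro s hs
    rw [Multiset.mem_toFinset, Polynomial.mem_roots hne, Polynomial.IsRoot.def, Polynomial.eval_sub,
      Polynomial.eval_one, sub_eq_zero]
    have h2 : (M ^ m).map (Polynomial.eval (t s)) = 1 := by
      have h3 : (M ^ m).map (Polynomial.eval (t s)) = (M.map (Polynomial.eval (t s))) ^ m := by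
        have := map_pow (Polynomial.evalRingHom (t s)).mapMatrix M m
        exact this
      have h4 : M.map (Polynomial.eval (t s)) = R (g * x s) := by
        have h5 := map_mul (Polynomial.evalRingHom (t s)).mapMatrix ((R g).map Polynomial.C) P
        rw [map_mul, hP]
        refine h5.trans ?_
        congr 1
        ext i j
        simp
      rw [h3, h4, ← map_pow, hs, map_one]
    have h6 := congrFun (congrFun h2 j0) j0
    rw [Matrix.map_apply, Matrix.one_apply_eq] at h6
    exact h6
  have h7 : Nat.card {s : F // (g * x s) ^ m = 1} ≤ Nat.card (f - 1).roots.toFinset := by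
    refine Nat.card_le_card_of_injective (fun s => (⟨t s.1, hroot s.1 s.2⟩ : (f - 1).roots.toFinset)) ?_
    intro s s' h
    exact Subtype.ext (ht (congrArg Subtype.val h))
  refine h7.trans ?_
  rw [Nat.card_eq_fintype_card, Fintype.card_coe]
  refine (Multiset.toFinset_card_le _).trans ((Polynomial.card_roots' _).trans ?_)
  refine (Polynomial.natDegree_sub_le _ _).trans ?_
  rw [Polynomial.natDegree_one]
  exact max_le hfd (Nat.zero_le _)

/-- **a positive proportion of the elements has a nonzero entry at a given place** (if there is one such element) -/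
theorem card_entry {T : Type u} [Group T] [Finite T] {K ι : Type*} [Field K] [Fintype ι] [DecidableEq ι]
    (R : T →* Matrix ι ι K) {i0 j0 : ι} (h : ∃ g, R g j0 i0 ≠ 0) :
    Nat.card T ≤ Fintype.card ι * Nat.card {g : T // R g j0 i0 ≠ 0} := by
  classical
  -- the functionals: rows `j0` of the matrices
  let row : T → (ι → K) := fun g => R g j0
  obtain ⟨B, hBsub, hBspan, hBli⟩ := exists_linearIndependent K (Set.range row)
  have hBfin : B.Finite := (Set.finite_range row).subset hBsub
  have hcard : B.ncard ≤ Fintype.card ι := by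
    have := hBfin.fintype
    have h1 := hBli.fintype_card_le_finrank
    rw [Module.finrank_fintype_fun_eq_card] at h1
    rwa [← Nat.card_coe_set_eq, Nat.card_eq_fintype_card]
  choose s hs using fun b : B => hBsub b.2
  have key : ∀ g : T, ∃ b : B, R (s b * g) j0 i0 ≠ 0 := by
    intro g
    by_contra hcon
    push Not at hcon
    obtain ⟨g1, hg1⟩ := h
    apply hg1
    -- all rows pair to zero with the column of `g`
    have h2 : ∀ v ∈ Submodule.span K (Set.range row), v ⬝ᵥ (fun k => R g k i0) = 0 := by
      rw [← hBspan]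
      intro v hv
      induction hv using Submodule.span_induction with
      | mem x hx =>
        have h3 := hcon ⟨x, hx⟩
        rw [map_mul, Matrix.mul_apply] at h3
        have h4 : R (s ⟨x, hx⟩) j0 = x := hs ⟨x, hx⟩
        rw [← h4]
        exact h3
      | zero => exact zero_dotProduct _
      | add x y _ _ hx hy => rw [add_dotProduct, hx, hy, add_zero]
      | smul c x _ hx => rw [smul_dotProduct, hx, smul_zero]
    have h5 := h2 (row (g1 * g⁻¹)) (Submodule.subset_span ⟨_, rfl⟩)
    have h6 : R g1 j0 i0 = (R (g1 * g⁻¹) * R g) j0 i0 := by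
      rw [← map_mul, inv_mul_cancel_right]
    rw [h6, Matrix.mul_apply]
    exact h5
  choose c hc using key
  have h8 : Nat.card T ≤ Nat.card (B × {g : T // R g j0 i0 ≠ 0}) := by
    have := hBfin.fintype
    refine Nat.card_le_card_of_injective (fun g => (c g, (⟨s (c g) * g, hc g⟩ : {g : T // R g j0 i0 ≠ 0}))) ?_
    intro g g' hgg
    have h9 : c g = c g' := congrArg Prod.fst hgg
    have h10 : s (c g) * g = s (c g') * g' := congrArg Subtype.val (congrArg Prod.snd hgg)
    rw [h9] at h10
    exact mul_left_cancel h10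
  rw [Nat.card_prod, Nat.card_coe_set_eq] at h8
  exact h8.trans (Nat.mul_le_mul_right _ hcard)

end Cfsg.Agent.H447.Rg
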