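import Cfsg.Agent.H141.Rg.Defs
import Cfsg.Agent.H447.Rg.Poly
import Cfsg.Agent.ChevalleyStructure.Elts

/-!
# S5714 [X4]: the data for the small order estimate, Chevalley types (helper447)
-/

set_option autoImplicit false

namespace Cfsg.Agent.H447.Rg

open Polynomial Cfsg.Lie Cfsg.Agent.ChevalleyStructure.Elts

universe u

/-- what is needed of the tables: `r`, `r'` opposite roots, all chains for `r` of length at most one -/
def okD (D : ChevalleyDatum) (r r' : ℕ) : Bool :=
  decide (r < D.nroots) && decide (r' < D.nroots) && decide (r ≠ r') && decide (D.rank + D.nroots ≤ 248) &&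
    (D.negIdx.getD r 0 == r') && (D.negIdx.getD r' 0 == r) &&
    (D.chain.getD r #[]).toList.all (fun e => decide (e.2.toList.length ≤ 1))

theorem ok_all : ∀ D ∈ [Lie.chevG2, Lie.chevF4, Lie.chevE6, Lie.chevE7, Lie.chevE8], okD D (D.nroots - 1) 0 = true := by
  intro D hD
  simp only [List.mem_cons, List.not_mem_nil, or_false] at hD
  rcases hD with rfl | rfl | rfl | rfl | rfl <;> decide +kernel

/-- `x_r(t)` as a polynomial matrix -/
noncomputable def pMat (D : ChevalleyDatum) (F : Type*) [Field F] (r : Fin D.nroots) : Matrix D.Idx D.Idx F[X] :=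
  Matrix.of fun row col =>
    match col with
    | Sum.inl i =>
      (match row with
       | Sum.inl i' => if i' = i then 1 else 0
       | Sum.inr u => if u = r then - C (((D.cartanSR.getD i.val #[]).getD r.val 0 : ℤ) : F) * X else 0)
    | Sum.inr s =>
      if s = r then (match row with | Sum.inr u => if u = r then 1 else 0 | Sum.inl _ => 0)
      else if s.val = D.negIdx.getD r.val 0 then
        (match row with
         | Sum.inl i => C (((D.coroot.getD r.val #[]).getD i.val 0 : ℤ) : F) * X
         | Sum.inr u => if u = s then 1 else if u = r then -(X ^ 2) else 0)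
      else
        (match row with
         | Sum.inl _ => 0
         | Sum.inr u => (if u = s then 1 else 0) +
             ((D.chainCoeff r.val s.val u.val).map fun km => C ((km.2 : ℤ) : F) * X ^ km.1).sum)

theorem pMat_eval (D : ChevalleyDatum) (F : Type*) [Field F] (r : Fin D.nroots) (t : F) :
    (pMat D F r).map (Polynomial.eval t) = D.xMat F r t := by
  ext row col
  rw [Matrix.map_apply]
  rcases col with i | s
  · rcases row with i' | u
    · show Polynomial.eval t (if i' = i then 1 else 0) = if i' = i then 1 else 0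
      split_ifs <;> simp
    · show Polynomial.eval t (if u = r then - C (((D.cartanSR.getD i.val #[]).getD r.val 0 : ℤ) : F) * X else 0) =
        if u = r then - (((D.cartanSR.getD i.val #[]).getD r.val 0 : ℤ) : F) * t else 0
      split_ifs <;> simp
  · show Polynomial.eval t (if s = r then (match row with | Sum.inr u => if u = r then 1 else 0 | Sum.inl _ => 0)
      else if s.val = D.negIdx.getD r.val 0 then
        (match row with
         | Sum.inl i => C (((D.coroot.getD r.val #[]).getD i.val 0 : ℤ) : F) * X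
         | Sum.inr u => if u = s then 1 else if u = r then -(X ^ 2) else 0)
      else
        (match row with
         | Sum.inl _ => 0
         | Sum.inr u => (if u = s then 1 else 0) +
             ((D.chainCoeff r.val s.val u.val).map fun km => C ((km.2 : ℤ) : F) * X ^ km.1).sum)) =
      if s = r then (match row with | Sum.inr u => if u = r then 1 else 0 | Sum.inl _ => 0)
      else if s.val = D.negIdx.getD r.val 0 then
        (match row with
         | Sum.inl i => (((D.coroot.getD r.val #[]).getD i.val 0 : ℤ) : F) * t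
         | Sum.inr u => if u = s then 1 else if u = r then -(t ^ 2) else 0)
      else
        (match row with
         | Sum.inl _ => 0
         | Sum.inr u => (if u = s then 1 else 0) +
             ((D.chainCoeff r.val s.val u.val).map fun km => ((km.2 : ℤ) : F) * t ^ km.1).sum)
    rcases row with i' | u
    · dsimp only
      split_ifs <;> simp
    · dsimp only
      by_cases h1 : s = r
      · rw [if_pos h1, if_pos h1]
        split_ifs <;> simp
      rw [if_neg h1, if_neg h1]
      by_cases h2 : s.val = D.negIdx.getD r.val 0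
      · rw [if_pos h2, if_pos h2]
        split_ifs <;> simp
      · rw [if_neg h2, if_neg h2, Polynomial.eval_add]
        congr 1
        · split_ifs <;> simp
        · rw [Polynomial.eval_listSum, List.map_map]
          congr 1
          refine List.map_congr_left fun km _ => ?_
          simp

theorem natDegree_list_sum_le' {R : Type*} [Semiring R] (l : List R[X]) (n : ℕ) (h : ∀ p ∈ l, p.natDegree ≤ n) :
    l.sum.natDegree ≤ n := by
  induction l with
  | nil => simp
  | cons p l ih =>
    rw [List.sum_cons]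
    refine (Polynomial.natDegree_add_le _ _).trans (max_le (h p List.mem_cons_self) (ih fun q hq => ?_))
    exact h q (List.mem_cons_of_mem _ hq)

theorem chainCoeff_le {D : ChevalleyDatum} {r r' : ℕ} (h : okD D r r' = true) (s u : ℕ) :
    ∀ km ∈ D.chainCoeff r s u, km.1 ≤ 1 := by
  intro km hkm
  rw [okD, Bool.and_eq_true] at h
  have h2 := List.all_eq_true.1 h.2
  rw [ChevalleyDatum.chainCoeff, List.mem_flatMap] at hkm
  obtain ⟨e, he, hkm⟩ := hkm
  have h3 := of_decide_eq_true (h2 e (List.mem_filter.1 he).1)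
  rw [List.mem_map] at hkm
  obtain ⟨q, hq, rfl⟩ := hkm
  have h4 := (List.mem_filter.1 hq).1
  have h5 := List.snd_lt_of_mem_zipIdx h4
  show q.2 + 1 ≤ 1
  omega

theorem pMat_deg {D : ChevalleyDatum} (F : Type*) [Field F] (r : Fin D.nroots) {r' : ℕ} (h : okD D r.val r' = true)
    (row col : D.Idx) :
    (pMat D F r row col).natDegree ≤ 2 ∧
      ((∀ s : Fin D.nroots, s.val = D.negIdx.getD r.val 0 → ¬ (row = Sum.inr r ∧ col = Sum.inr s)) →
        (pMat D F r row col).natDegree ≤ 1) := by
  have h0 : ∀ {n : ℕ} {p : F[X]}, p.natDegree ≤ n → n ≤ 1 → p.natDegree ≤ 2 ∧ ((∀ s : Fin D.nroots,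
      s.val = D.negIdx.getD r.val 0 → ¬ (row = Sum.inr r ∧ col = Sum.inr s)) → p.natDegree ≤ 1) := by
    intro n p hp hn
    exact ⟨by omega, fun _ => by omega⟩
  have hone : ∀ (c : Prop) [Decidable c], (if c then (1 : F[X]) else 0).natDegree ≤ 1 := by
    intro c _
    split_ifs <;> simp
  have hX : ∀ a : F, (C a * X : F[X]).natDegree ≤ 1 := fun a => (Polynomial.natDegree_C_mul_le _ _).trans Polynomial.natDegree_X_le
  rcases col with i | s
  · rcases row with i' | u
    · exact h0 (hone (i' = i)) le_rfl
    · refine h0 (n := 1) ?_ le_rfl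
      show (if u = r then - C (((D.cartanSR.getD i.val #[]).getD r.val 0 : ℤ) : F) * X else 0).natDegree ≤ 1
      split_ifs
      · rw [neg_mul, Polynomial.natDegree_neg]
        exact hX _
      · simp
  · rcases row with i' | u
    · refine h0 (n := 1) ?_ le_rfl
      show (if s = r then 0 else if s.val = D.negIdx.getD r.val 0 then
        C (((D.coroot.getD r.val #[]).getD i'.val 0 : ℤ) : F) * X else 0).natDegree ≤ 1
      split_ifs
      · simp
      · exact hX _
      · simp
    · show (if s = r then (if u = r then 1 else 0) else if s.val = D.negIdx.getD r.val 0 then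
          (if u = s then 1 else if u = r then -(X ^ 2) else 0)
        else (if u = s then 1 else 0) +
             ((D.chainCoeff r.val s.val u.val).map fun km => C ((km.2 : ℤ) : F) * X ^ km.1).sum : F[X]).natDegree ≤ 2 ∧
        ((∀ s' : Fin D.nroots, s'.val = D.negIdx.getD r.val 0 → ¬ ((Sum.inr u : D.Idx) = Sum.inr r ∧ (Sum.inr s : D.Idx) = Sum.inr s')) →
        (if s = r then (if u = r then 1 else 0) else if s.val = D.negIdx.getD r.val 0 then
          (if u = s then 1 else if u = r then -(X ^ 2) else 0)
        else (if u = s then 1 else 0) +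
             ((D.chainCoeff r.val s.val u.val).map fun km => C ((km.2 : ℤ) : F) * X ^ km.1).sum : F[X]).natDegree ≤ 1)
      by_cases h1 : s = r
      · rw [if_pos h1]
        exact h0 (hone (u = r)) le_rfl
      rw [if_neg h1]
      by_cases h2 : s.val = D.negIdx.getD r.val 0
      · rw [if_pos h2]
        by_cases h3 : u = s
        · rw [if_pos h3]
          exact h0 (n := 0) (by simp) (by omega)
        rw [if_neg h3]
        by_cases h4 : u = r
        · rw [if_pos h4]
          refine ⟨?_, fun hh => ?_⟩
          · rw [Polynomial.natDegree_neg, Polynomial.natDegree_X_pow]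
          · exact absurd ⟨by rw [h4], rfl⟩ (hh s h2)
        · rw [if_neg h4]
          exact h0 (n := 0) (by simp) (by omega)
      · rw [if_neg h2]
        refine h0 (n := 1) ?_ le_rfl
        refine (Polynomial.natDegree_add_le _ _).trans (max_le (hone _) ?_)
        refine natDegree_list_sum_le' _ _ fun p hp => ?_
        obtain ⟨km, hkm, rfl⟩ := List.mem_map.1 hp
        have h5 := chainCoeff_le h s.val u.val km hkm
        exact (Polynomial.natDegree_C_mul_X_pow_le _ _).trans h5

/-- the inclusion as a homomorphism to the matrices -/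
noncomputable def rep {D : ChevalleyDatum} {F : Type*} [Field F] (T : Subgroup (GL D.Idx F)) : ↥T →* Matrix D.Idx D.Idx F :=
  (Units.coeHom _).comp T.subtype

/-- the number of solutions of `x ^ q = x` -/
theorem card_fixed {F : Type*} [Field F] [Fintype F] {q k : ℕ} (hq : 2 ≤ q)
    (hF : Fintype.card F = q ^ k) : Nat.card {x : F // x ^ q = x} = q := by
  classical
  have hker : Nat.card (powMonoidHom (q - 1) : Fˣ →* Fˣ).ker = q - 1 := by
    rw [IsCyclic.card_powMonoidHom_ker, Nat.card_units, Nat.card_eq_fintype_card, hF]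
    exact Nat.gcd_eq_right (Nat.sub_one_dvd_pow_sub_one q k)
  have h0 : (0 : F) ^ q = 0 := zero_pow (by omega)
  have hiff : ∀ u : F, u ≠ 0 → (u ^ q = u ↔ u ^ (q - 1) = 1) := by
    intro u hu
    have e : u ^ q = u ^ (q - 1) * u := by rw [← pow_succ, Nat.sub_add_cancel (by omega)]
    rw [e]
    constructor
    · intro h
      exact mul_right_cancel₀ hu (by rw [h, one_mul])
    · intro h
      rw [h, one_mul]
  have e2 : {x : F // x ^ q = x} ≃ Option (powMonoidHom (q - 1) : Fˣ →* Fˣ).ker :=
    { toFun := fun x => if h : x.1 = 0 then none else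
        some ⟨Units.mk0 x.1 h, by
          rw [MonoidHom.mem_ker]
          apply Units.ext
          exact (hiff x.1 h).1 x.2⟩
      invFun := fun o => match o with
        | none => ⟨0, h0⟩
        | some u => ⟨(u.1 : F), (hiff _ u.1.ne_zero).2 (congrArg Units.val (MonoidHom.mem_ker.1 u.2))⟩
      left_inv := by
        rintro ⟨x, hx⟩
        by_cases h : x = 0
        · subst h
          simp
        · simp [h]
      right_inv := by
        rintro (_ | ⟨u, hu⟩)
        · simp
        · simp }
  rw [Nat.card_congr e2, Finite.card_option, hker]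
  omega

/-- **the data for the small order estimate** for a group of matrices containing the elements `x_r(t)`, `t ∈ F'`, and
`x_{-r}(1)` -/
theorem ordData_of {D : ChevalleyDatum} (hL : InList D) {F : Type} [Field F] [Finite F] {r r' : ℕ}
    (hok : okD D r r' = true) (T : Subgroup (GL D.Idx F)) {q : ℕ} (Q : F → Prop) (hQ : Nat.card {t : F // Q t} = q)
    (hQ0 : Q 0) (hx : ∀ t, Q t → xG hL r t ∈ T) (hy : xG hL r' (1 : F) ∈ T) :
    H141.Rg.OrdData ↥T q (1 / 248) 2 := by
  classical
  have hok' := hok
  rw [okD, Bool.and_eq_true, Bool.and_eq_true, Bool.and_eq_true, Bool.and_eq_true, Bool.and_eq_true,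
    Bool.and_eq_true] at hok'
  obtain ⟨⟨⟨⟨⟨⟨a1, a1'⟩, a0⟩, a2⟩, a3⟩, a4⟩, -⟩ := hok'
  have hr := of_decide_eq_true a1
  have hr' := of_decide_eq_true a1'
  have hne := of_decide_eq_true a0
  have b2 := of_decide_eq_true a2
  have b3 : D.negIdx.getD r 0 = r' := beq_iff_eq.1 a3
  have b4 : D.negIdx.getD r' 0 = r := beq_iff_eq.1 a4
  set h : Fin D.nroots := ⟨r, hr⟩ with hh
  set o : Fin D.nroots := ⟨r', hr'⟩ with ho
  have hoh : o ≠ h := fun he => hne (congrArg Fin.val he).symm
  have hfin : Finite ↥T := inferInstance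
  have hex : ∃ g, rep T g (Sum.inr o) (Sum.inr h) ≠ 0 := by
    refine ⟨⟨xG hL r' 1, hy⟩, ?_⟩
    have h1 : rep T ⟨xG hL r' 1, hy⟩ = D.xMat F o 1 := x_of_lt hr' (1 : F)
    rw [h1]
    show (if h = o then (if o = o then (1 : F) else 0) else if h.val = D.negIdx.getD o.val 0 then
      (if o = h then 1 else if o = o then -((1 : F) ^ 2) else 0) else _) ≠ 0
    rw [if_neg (Ne.symm hoh), if_pos (by rw [ho, hh]; exact b4.symm), if_neg hoh, if_pos rfl]
    simp
  have hQfin : Nat.card {t : F // Q t} ≠ 0 := by
    have : Nonempty {t : F // Q t} := ⟨⟨0, hQ0⟩⟩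
    exact Nat.card_pos.ne'
  refine ⟨{t : F // Q t}, inferInstance, fun t => ⟨xG hL r t, hx t t.2⟩, {g | rep T g (Sum.inr o) (Sum.inr h) ≠ 0}, 2,
    ?_, hQ, ?_, ?_, ?_⟩
  · intro t u htu
    exact Subtype.ext (xG_injective hL hr (congrArg Subtype.val htu))
  · have h1 := card_entry (rep T) hex
    have h2 : Fintype.card D.Idx ≤ 248 := by
      rw [Fintype.card_sum, Fintype.card_fin, Fintype.card_fin]
      exact b2
    have h3 := h1.trans (Nat.mul_le_mul_right _ h2)
    have h4 : (Nat.card ↥T : ℝ) ≤
        248 * (Nat.card {g : ↥T // rep T g (Sum.inr o) (Sum.inr h) ≠ 0} : ℕ) := by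
      exact_mod_cast h3
    have h5 : (Nat.card ({g | rep T g (Sum.inr o) (Sum.inr h) ≠ 0} : Set ↥T) : ℝ) =
      (Nat.card {g : ↥T // rep T g (Sum.inr o) (Sum.inr h) ≠ 0} : ℕ) := rfl
    rw [h5]
    linarith
  · have h1 : (1 : ℝ) ≤ Real.sqrt (q : ℕ) := by
      rw [Real.one_le_sqrt]
      exact_mod_cast (by omega : 1 ≤ q)
    push_cast
    linarith
  · intro g hg m hm
    refine card_pow_eq_one_le (rep T) (fun t : {t : F // Q t} => (⟨xG hL r t, hx t t.2⟩ : ↥T)) (fun t => t.1)
      Subtype.val_injective (pMat D F h) (D := 2) (by norm_num) (fun i j => (pMat_deg F h hok i j).1) ?_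
      (i0 := Sum.inr h) (j0 := Sum.inr o) ?_ ?_ g hg m hm
    · intro t
      rw [pMat_eval]
      exact x_of_lt hr t.1
    · intro i j hij
      refine Polynomial.coeff_eq_zero_of_natDegree_lt (lt_of_le_of_lt ((pMat_deg F h hok i j).2 ?_) (by norm_num))
      intro s hs hh'
      apply hij
      rw [hh'.1, hh'.2]
      have h6 : s = o := Fin.ext (by rw [hs]; exact b3)
      rw [h6]
    · have h7 : pMat D F h (Sum.inr h) (Sum.inr o) = -(X ^ 2) := by
        show (if o = h then (if h = h then (1 : F[X]) else 0) else if o.val = D.negIdx.getD h.val 0 then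
          (if h = o then 1 else if h = h then -((X : F[X]) ^ 2) else 0) else _) = _
        rw [if_neg hoh, if_pos (by rw [ho, hh]; exact b3.symm), if_neg (Ne.symm hoh), if_pos rfl]
      rw [h7]
      simp

theorem ord_data {D : ChevalleyDatum} (hD : D ∈ [Lie.chevG2, Lie.chevF4, Lie.chevE6, Lie.chevE7, Lie.chevE8])
    (F : Type) [Field F] [Fintype F] : H141.Rg.OrdData ↥(D.group F) (Fintype.card F) (1 / 248) 2 := by
  have hok := ok_all D hD
  have hL : InList D := by
    simp only [List.mem_cons, List.not_mem_nil, or_false] at hD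
    rcases hD with rfl | rfl | rfl | rfl | rfl <;> simp [InList]
  have hok' := hok
  rw [okD, Bool.and_eq_true, Bool.and_eq_true, Bool.and_eq_true, Bool.and_eq_true, Bool.and_eq_true,
    Bool.and_eq_true] at hok'
  have hr := of_decide_eq_true hok'.1.1.1.1.1.1
  have hr' := of_decide_eq_true hok'.1.1.1.1.1.2
  have hmem : ∀ {r : ℕ} (hr : r < D.nroots) (t : F), xG hL r t ∈ D.group F := fun {r} hr t =>
    Subgroup.subset_closure ⟨⟨r, hr⟩, t, x_of_lt hr t⟩
  refine ordData_of hL hok (D.group F) (fun _ => True) ?_ trivial (fun t _ => hmem hr t) (hmem hr' 1)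
  rw [Nat.card_congr (Equiv.subtypeUnivEquiv fun _ => trivial), Nat.card_eq_fintype_card]

theorem ord_chev : ∃ c0 D0 : ℝ, 0 < c0 ∧ ∀ D ∈ [Lie.chevG2, Lie.chevF4, Lie.chevE6, Lie.chevE7, Lie.chevE8],
    ∀ (F : Type) [Field F] [Fintype F], H141.Rg.OrdData ↥(D.group F) (Fintype.card F) c0 D0 :=
  ⟨1 / 248, 2, by norm_num, fun _ hD F _ _ => ord_data hD F⟩

/-- a one letter word -/
theorem xG_mem_gen {D : ChevalleyDatum} (hL : InList D) {F : Type} [Field F] {r : ℕ} {t : F} {W : Set (List (ℕ × F))}
    (h : [(r, t)] ∈ W) : xG hL r t ∈ D.genSubgroup F W := by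
  refine Subgroup.subset_closure ⟨[(r, t)], h, ?_⟩
  rw [wordMat_cons, wordMat_nil, mul_one]
  rfl

theorem two_le_of_card {F : Type} [Field F] [Fintype F] {q k : ℕ} (hF : Fintype.card F = q ^ (k + 1)) : 2 ≤ q := by
  have h1 : 1 < Fintype.card F := Fintype.one_lt_card
  rw [hF] at h1
  rcases q with _ | _ | q
  · simp at h1
  · simp at h1
  · omega

theorem ord_td4 : ∃ c0 D0 : ℝ, 0 < c0 ∧ ∀ (F : Type) [Field F] [Fintype F] (q : ℕ), Fintype.card F = q ^ 3 →
    H141.Rg.OrdData ↥(Lie.twistedD4 F q) q c0 D0 := by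
  refine ⟨1 / 248, 2, by norm_num, fun F _ _ q hF => ?_⟩
  have hq := two_le_of_card hF
  have hL : InList chevD4 := by simp [InList]
  refine ordData_of hL (r := d4p2) (r' := d4m2) (by decide +kernel) (Lie.twistedD4 F q) (fun t => t ^ q = t)
    (card_fixed hq hF) (zero_pow (by omega)) (fun t ht => xG_mem_gen hL (Or.inl ⟨t, ht, d4p2, by simp, rfl⟩))
    (xG_mem_gen hL (Or.inl ⟨1, one_pow _, d4m2, by simp, rfl⟩))

theorem ord_te6 : ∃ c0 D0 : ℝ, 0 < c0 ∧ ∀ (F : Type) [Field F] [Fintype F] (q : ℕ), Fintype.card F = q ^ 2 →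
    H141.Rg.OrdData ↥(Lie.twistedE6 F q) q c0 D0 := by
  refine ⟨1 / 248, 2, by norm_num, fun F _ _ q hF => ?_⟩
  have hq := two_le_of_card hF
  have hL : InList chevE6 := by simp [InList]
  refine ordData_of hL (r := e6p2) (r' := e6m2) (by decide +kernel) (Lie.twistedE6 F q) (fun t => t ^ q = t)
    (card_fixed hq hF) (zero_pow (by omega)) (fun t ht => xG_mem_gen hL (Or.inl ⟨t, ht, e6p2, by simp, rfl⟩))
    (xG_mem_gen hL (Or.inl ⟨1, one_pow _, e6m2, by simp, rfl⟩))

end Cfsg.Agent.H447.Rg
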